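import Cfsg.Agent.H516.Ore.LargeEleven
import Cfsg.Agent.H903.Ore.Baby
import Cfsg.Agent.H861.PiS.BabyOrb

/-!
# The Baby Monster: products of four involutions in the centralizer of a 2B involution (S4171, helper516)

`C(z) = 2^(1+22).Co₂`.  `OreF11` : every `l ≠ 1` of `Co₂` is `a b` with `a`, `b` of order 11 and an element of order 23 in
`⟨a, b⟩`, and some element of order 11 is inverted by an involution.  Then every element of `C(z)` (`cent4_B`) and every
2-element of the Baby Monster (`two4_B`) is a product of four elements of square one.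
-/

set_option autoImplicit false

namespace Cfsg.Agent.H516.Ore.BabyFour

open Cfsg Cfsg.Agent.BabyM Cfsg.Agent.BabyM.Model Cfsg.Agent.BabyU.ClosModel Cfsg.Agent.BabyU.ClosLane
open Cfsg.Agent.H777.Ore Cfsg.Agent.H903.Ore.Large Cfsg.Agent.H516.Ore.LargeFour
open Cfsg.Agent.H6.ORE Cfsg.Agent.H903.Ore.Baby
open Cfsg.Agent.Co2Type.Quad (Large)
open scoped Pointwise

universe u

theorem I4.map' {G H : Type*} [Group G] [Group H] (f : G →* H) {g : G} (h : I4 g) : I4 (f g) :=
  H529.Inv.I4.map f h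

theorem I4.of_conj' {G : Type*} [Group G] {g : G} (u : G) (h : I4 (u * g * u⁻¹)) : I4 g := by
  have h1 := H529.Inv.I4.conj h u⁻¹
  rwa [show u⁻¹ * (u * g * u⁻¹) * u⁻¹⁻¹ = g by group] at h1

/-- `l` is a product of two elements of order 11 generating a group with an element of order 23 -/
def F11 {L : Type*} [Group L] (l : L) : Prop :=
  ∃ a b : L, l = a * b ∧ orderOf a = 11 ∧ orderOf b = 11 ∧ ∃ y ∈ Subgroup.closure ({a, b} : Set L), orderOf y = 23

theorem F11.map {L L' : Type*} [Group L] [Group L'] (f : L ≃* L') {l : L} (h : F11 l) : F11 (f l) := by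
  obtain ⟨a, b, e, ha, hb, y, hy, hyr⟩ := h
  refine ⟨f a, f b, by rw [e, map_mul], by rw [MulEquiv.orderOf_eq, ha], by rw [MulEquiv.orderOf_eq, hb], f y, ?_,
    by rw [MulEquiv.orderOf_eq, hyr]⟩
  have h1 : f y ∈ (Subgroup.closure ({a, b} : Set L)).map f.toMonoidHom := ⟨y, hy, rfl⟩
  rw [MonoidHom.map_closure, Set.image_pair] at h1
  exact h1

theorem F11.conj {L : Type*} [Group L] {l : L} (h : F11 l) (x : L) : F11 (x * l * x⁻¹) :=
  F11.map (MulAut.conj x) h

theorem F11.inv {L : Type*} [Group L] {l : L} (h : F11 l) : F11 l⁻¹ := by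
  obtain ⟨a, b, e, ha, hb, y, hy, hyr⟩ := h
  refine ⟨b⁻¹, a⁻¹, by rw [e, mul_inv_rev], by rw [orderOf_inv, hb], by rw [orderOf_inv, ha], y, ?_, hyr⟩
  have h1 : Subgroup.closure ({a, b} : Set L) ≤ Subgroup.closure ({b⁻¹, a⁻¹} : Set L) := by
    rw [Subgroup.closure_le]
    rintro _ (rfl | rfl)
    · rw [SetLike.mem_coe, ← Subgroup.inv_mem_iff]
      exact Subgroup.subset_closure (by simp)
    · rw [SetLike.mem_coe, ← Subgroup.inv_mem_iff]
      exact Subgroup.subset_closure (by simp)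
  exact h1 hy

/-- an element of order 11 inverted by an element of square one -/
def R11 (L : Type*) [Group L] : Prop := ∃ a t : L, orderOf a = 11 ∧ t * t = 1 ∧ t * a * t⁻¹ = a⁻¹

theorem R11.map {L L' : Type*} [Group L] [Group L'] (f : L ≃* L') (h : R11 L) : R11 L' := by
  obtain ⟨a, t, ha, ht, e⟩ := h
  exact ⟨f a, f t, by rw [MulEquiv.orderOf_eq, ha], by rw [← map_mul, ht, map_one], by
    rw [← map_inv, ← map_mul, ← map_mul, e, map_inv]⟩

/-- every nontrivial element of `Co₂` -/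
def OreF11 : Prop := R11 Spor.Co2 ∧ ∀ l : Spor.Co2, l ≠ 1 → F11 l

/-- every nontrivial 2-element of `Co₂` -/
def OreF11Two : Prop := R11 Spor.Co2 ∧ ∀ l : Spor.Co2, l ≠ 1 → (∃ k : ℕ, orderOf l = 2 ^ k) → F11 l

theorem OreF11.two (h : OreF11) : OreF11Two := ⟨h.1, fun l h1 _ => h.2 l h1⟩

/-! ### Sylow 11-subgroups -/

theorem sy11 {L : Type*} [Group L] [Finite L] (h : ¬ 11 ^ 2 ∣ Nat.card L) : Sy11 L := by
  classical
  have : Fact (Nat.Prime 11) := ⟨by norm_num⟩
  intro x y hx hy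
  have hs : ∀ {z : L}, orderOf z = 11 → ∃ S : Sylow 11 L, (S : Subgroup L) = Subgroup.zpowers z := by
    intro z hz
    have hc : Nat.card (Subgroup.zpowers z) = 11 ^ 1 := by rw [Nat.card_zpowers, hz, pow_one]
    obtain ⟨S, hS⟩ := (IsPGroup.of_card hc).exists_le_sylow
    refine ⟨S, (Subgroup.eq_of_le_of_card_ge hS ?_).symm⟩
    obtain ⟨k, hk⟩ := IsPGroup.iff_card.1 S.2
    have hk1 : k ≤ 1 := by
      by_contra hlt
      exact h ((pow_dvd_pow 11 (by omega)).trans (hk ▸ Subgroup.card_subgroup_dvd_card _))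
    rw [hk, hc]
    exact Nat.pow_le_pow_right (by norm_num) hk1
  obtain ⟨S, hS⟩ := hs hx
  obtain ⟨T, hT⟩ := hs hy
  obtain ⟨c, hc⟩ := MulAction.exists_smul_eq L T S
  have h6 : c * y * c⁻¹ ∈ (S : Subgroup L) := by
    rw [← hc]
    show MulAut.conj c • y ∈ MulAut.conj c • (T : Subgroup L)
    apply Subgroup.smul_mem_pointwise_smul
    rw [hT]
    exact Subgroup.mem_zpowers _
  rw [hS, ← mem_powers_iff_mem_zpowers] at h6
  obtain ⟨i, hi⟩ := h6
  refine ⟨c⁻¹, i, ?_⟩
  have hi' : x ^ i = c * y * c⁻¹ := hi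
  rw [hi']
  group

/-! ### The model -/

/-- `Q/⟨z⟩` -/
abbrev VV : Type := (KFacts.Baby.Inst.large A).V

/-- the vector of the transposition -/
noncomputable def v0 : VV := (KFacts.Baby.Inst.large A).pr ⟨tt A, tP A⟩

theorem card_V : Nat.card VV = 2 ^ 22 := by
  have h1 : Nat.card (PP Inst.M) = 2 * Nat.card VV := (KFacts.Baby.Inst.large A).card_eq
  rw [card_PP'] at h1
  omega

theorem q_v0 : (KFacts.Baby.Inst.large A).q v0 = 0 := by
  refine (KFacts.Baby.Inst.large A).q_eq_zero.2 ?_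
  exact Subtype.ext A.rep.t₀_sq

theorem v0_ne : v0 ≠ 0 := by
  intro h
  rcases (KFacts.Baby.Inst.large A).pr_eq_zero.1 h with e | e
  · exact A.rep.t₀_ne (congrArg Subtype.val e)
  · exact A.rep.t₀_ne_z (congrArg Subtype.val e)

/-- the vectors of the transpositions -/
def YY : Set VV := {v | ∃ c : CZ (zz A), (KFacts.Baby.Inst.large A).act c v0 = v}

section

open Cfsg.Agent.Monster.PauliBasic Cfsg.Agent.Monster.PauliRep Cfsg.Agent.Monster.PauliClif Cfsg.Agent.Monster.PauliBits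
open Cfsg.Agent.BabyM.QAct Cfsg.Agent.BabyM.Conc Cfsg.Agent.BabyM.KTab
open Cfsg.Agent.BabyM.KRow Cfsg.Agent.BabyM.KQ Cfsg.Agent.BabyM.KRowData Cfsg.Agent.BabyM.QIrrInst

theorem fix_iff (c : CZ (zz A)) : (KFacts.Baby.Inst.large A).act c v0 = v0 ↔
    KFacts.Baby.Inst.eC A c ∈ MulAction.stabilizer Inst.M.C (H861.PiS.BabyOrb.cl' H861.PiS.BabyOrb.xa) := by
  rw [MulAction.mem_stabilizer_iff, H861.PiS.BabyOrb.smul_cl, H861.PiS.BabyOrb.cl_eq, v0, Large.act_pr,
    Large.pr_eq_pr]
  obtain ⟨B, hB⟩ : ∃ B, B = Cd.c Inst.laneB := ⟨_, rfl⟩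
  have hBx : ab B = ab H861.PiS.BabyOrb.xa := by rw [hB]; exact v_base
  have h1 : ab (H861.PiS.BabyOrb.al (KFacts.Baby.Inst.eC A c) H861.PiS.BabyOrb.xa) =
      ab (H861.PiS.BabyOrb.al (KFacts.Baby.Inst.eC A c) B) := ab_aut_congr _ hBx.symm
  have h2 := H861.PiS.BabyOrb.al_spec (KFacts.Baby.Inst.eC A c) B
  have hR : Cd.R B = Inst.M.t₀ := by rw [hB]; exact t₀_R.symm
  rw [h1, ← hBx]
  constructor
  · intro h
    apply ab_of_R
    rw [← h2, hR]
    rcases h with e | e
    · left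
      exact congrArg Subtype.val e
    · right
      exact congrArg Subtype.val e
  · intro h
    have h3 := R_eq_or h
    rw [← h2, hR] at h3
    rcases h3 with e | e
    · left
      exact Subtype.ext e
    · right
      exact Subtype.ext e

end

theorem act_YY (c : CZ (zz A)) (v : VV) (hv : v ∈ YY) : (KFacts.Baby.Inst.large A).act c v ∈ YY := by
  obtain ⟨d, rfl⟩ := hv
  exact ⟨c * d, by rw [map_mul]; rfl⟩

theorem ncard_YY : YY.ncard = 2300 := by
  let _ : MulAction (CZ (zz A)) VV := MulAction.compHom VV (KFacts.Baby.Inst.large A).act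
  have h1 : YY = MulAction.orbit (CZ (zz A)) v0 := rfl
  rw [h1, ← MulAction.index_stabilizer]
  have h2 : MulAction.stabilizer (CZ (zz A)) v0 = (MulAction.stabilizer Inst.M.C
      (H861.PiS.BabyOrb.cl' H861.PiS.BabyOrb.xa)).comap (KFacts.Baby.Inst.eC A).toMonoidHom := by
    ext c
    rw [MulAction.mem_stabilizer_iff]
    exact fix_iff c
  rw [h2, Subgroup.index_comap_of_surjective _ (KFacts.Baby.Inst.eC A).surjective, MulAction.index_stabilizer,
    H861.PiS.BabyOrb.orbit_a]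
  exact (H861.PiS.BabyOrb.ncard_AA _).trans H861.PiS.BabyOrb.c2300

theorem YY_spec (v : VV) (hv : v ∈ YY) : v ≠ 0 ∧ (KFacts.Baby.Inst.large A).q v = 0 := by
  obtain ⟨c, rfl⟩ := hv
  refine ⟨fun h => v0_ne (((KFacts.Baby.Inst.large A).act c).injective (by rw [h, map_zero])), ?_⟩
  rw [Large.q_act, q_v0]

theorem card_K0 : ¬ 11 ^ 2 ∣ Nat.card GroupInst.K₀ := by
  rw [A.grp.card]; norm_num

/-- **The elements of `C(z)`**, for the model. -/
theorem cent_model' (hR : R11 Spor.Co2) (g : Inst.M.G) (hg : g * zz A = zz A * g)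
    (hO : ∀ (π : CZ (zz A) →* GroupInst.K₀) (e : GroupInst.K₀ ≃* Spor.Co2),
      π ⟨g, Subgroup.mem_centralizer_singleton_iff.2 hg⟩ ≠ 1 →
        F11 (e (π ⟨g, Subgroup.mem_centralizer_singleton_iff.2 hg⟩))) : I4 g := by
  have := A.finite_G
  have hK : Finite GroupInst.K₀ := Nat.finite_of_card_ne_zero (by rw [A.grp.card]; norm_num)
  obtain ⟨π, hs, hk⟩ := KFacts.Baby.Inst.quot A
  obtain ⟨e⟩ := Cfsg.Agent.Schreier.CoTwoStab.exists_equiv _ GroupInst.dt_l₀
  by_cases h1 : π ⟨g, Subgroup.mem_centralizer_singleton_iff.2 hg⟩ = 1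
  · exact i4_in (KFacts.Baby.Inst.large A) (by rw [card_V]; norm_num) ((hk _).1 h1)
  · have h2 := F11.map e.symm (hO π e h1)
    rw [e.symm_apply_apply] at h2
    obtain ⟨a, b, e', ha, hb, y, hy, hyr⟩ := h2
    exact i4_eleven (KFacts.Baby.Inst.large A) card_V hs hk (sy11 card_K0) (R11.map e.symm hR) act_YY
      (by rw [ncard_YY]; decide) YY_spec (g := ⟨g, Subgroup.mem_centralizer_singleton_iff.2 hg⟩) e' ha hb hy hyr

theorem cent_model (hO : OreF11) (g : Inst.M.G) (hg : g * zz A = zz A * g) : I4 g := by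
  refine cent_model' hO.1 g hg fun π e h1 => hO.2 _ fun h2 => h1 (e.injective ?_)
  rw [h2, map_one]

/-- **The 2-elements**, for the model. -/
theorem two_model (hO : OreF11Two) {g : Inst.M.G} (hg : ∃ k : ℕ, orderOf g = 2 ^ k) : I4 g := by
  have := A.finite_G
  obtain ⟨u, hu⟩ := H6.ORE.exists_conj_mem (KFacts.Baby.Inst.odd_index A) hg
  have h0 : I4 (u * g * u⁻¹) := by
    refine cent_model' hO.1 _ (Subgroup.mem_centralizer_singleton_iff.1 hu) fun π e h1 =>
      hO.2 _ (fun h2 => h1 (e.injective ?_)) ?_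
    · rw [h2, map_one]
    · obtain ⟨k, hk'⟩ := hg
      have ho : orderOf (⟨u * g * u⁻¹, hu⟩ : CZ (zz A)) = 2 ^ k := by
        rw [← Subgroup.orderOf_coe, ← hk']
        show orderOf (u * g * u⁻¹) = orderOf g
        rw [show u * g * u⁻¹ = MulAut.conj u g from rfl, MulEquiv.orderOf_eq]
      have h2 : orderOf (π ⟨u * g * u⁻¹, hu⟩) ∣ 2 ^ k := by rw [← ho]; exact orderOf_map_dvd π _
      obtain ⟨j, -, hj⟩ := (Nat.dvd_prime_pow Nat.prime_two).1 h2
      refine ⟨j, ?_⟩
      rw [MulEquiv.orderOf_eq]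
      exact hj
  exact I4.of_conj' u h0

/-! ### The Baby Monster -/

section

variable {G : Type u} [Group G]

/-- **Every 2-element of the Baby Monster is a product of four elements of square one.** -/
theorem two4_B (h : Spor.IsoB G) (hO : OreF11Two) {g : G} (hg : ∃ k : ℕ, orderOf g = 2 ^ k) : I4 g := by
  obtain ⟨f⟩ := KFacts.Baby.RowB.exists_iso h
  have h1 : I4 (f.symm g) := two_model hO (by
    obtain ⟨k, hk⟩ := hg
    exact ⟨k, by rw [MulEquiv.orderOf_eq, hk]⟩)
  have h2 := I4.map' f.toMonoidHom h1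
  change I4 (f (f.symm g)) at h2
  rwa [f.apply_symm_apply] at h2

/-- **Every element of the centralizer of a 2B involution is a product of four elements of square one.** -/
theorem cent4_B (h : Spor.IsoB G) (hO : OreF11) : ∃ z : G, orderOf z = 2 ∧
    Nat.card (Subgroup.centralizer ({z} : Set G)) = 2 ^ 23 * 42305421312000 ∧ ∀ g : G, g * z = z * g → I4 g := by
  obtain ⟨f⟩ := KFacts.Baby.RowB.exists_iso h
  have := A.finite_G
  have hz : orderOf (zz A) = 2 := orderOf_eq_prime (by rw [pow_two]; exact z_sq A) (z_ne A)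
  refine ⟨f (zz A), by rw [MulEquiv.orderOf_eq, hz], ?_, fun g hg => ?_⟩
  · have h1 : (Subgroup.centralizer ({zz A} : Set Inst.M.G)).map f.toMonoidHom =
        Subgroup.centralizer ({f (zz A)} : Set G) := by
      ext y
      rw [Subgroup.mem_map, Subgroup.mem_centralizer_singleton_iff]
      constructor
      · rintro ⟨x, hx, rfl⟩
        rw [Subgroup.mem_centralizer_singleton_iff] at hx
        show f x * f (zz A) = f (zz A) * f x
        rw [← map_mul, hx, map_mul]
      · intro hy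
        refine ⟨f.symm y, Subgroup.mem_centralizer_singleton_iff.2 (f.injective ?_), f.apply_symm_apply y⟩
        rw [map_mul, map_mul, f.apply_symm_apply, hy]
    rw [← h1, ← Nat.card_congr ((Subgroup.centralizer ({zz A} : Set Inst.M.G)).equivMapOfInjective _ f.injective).toEquiv,
      Nat.card_congr (KFacts.Baby.Inst.eC A).toEquiv, A.grp.card_C]
  · have h1 : I4 (f.symm g) := cent_model hO _ (f.injective (by
      rw [map_mul, map_mul, f.apply_symm_apply, hg]))
    have h2 := I4.map' f.toMonoidHom h1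
    change I4 (f (f.symm g)) at h2
    rwa [f.apply_symm_apply] at h2

end

end Cfsg.Agent.H516.Ore.BabyFour
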