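import Cfsg.Agent.H612.Ore.CoTwo23
import Cfsg.Agent.H516.Ore.BabyFour

/-!
# `Co2`: every class representative `r_i` is a product of two elements of order 11 (helper516)

Generic in the model `M` of `Co2` (helper633, 22 × 22 matrices over `F₂`), as in `CoTwo23` (helper612): the rows of `T` are
`(a, b, w, e)` with `r = [a, b]`, `A = w` of order 11, `B = A⁻¹ r` of order 11 and `e(A, B)` of order 23.
`f11_of`, `r11_of` : the two facts in `BabyFour.OreF11`.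
-/

set_option autoImplicit false
set_option maxRecDepth 100000

namespace Cfsg.Agent.H516.Ore.CoTwo11

open Cfsg.Agent.H633.Ore Cfsg.Agent.H68.Ore.Words Cfsg.Agent.H612.Ore.CoTwo23 Cfsg.Agent.H516.Ore.BabyFour

/-- `X ^ 10` and `X ^ 11` -/
noncomputable def pw {β : Sort _} (X : List ℕ) (k : List ℕ → List ℕ → β) : β :=
  mapF (linL X) X fun X2 => mapF (linL X2) X2 fun X4 => mapF (linL X4) X4 fun X8 => mapF (linL X8) X2 fun X10 =>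
    mapF (linL X10) X fun X11 => k X10 X11

/-- the four matrices -/
noncomputable def gen4 {α : Type*} (g0 g1 g2 g3 : α) (k : ℕ) : α :=
  Nat.rec g0 (fun k' _ => Nat.rec g1 (fun k'' _ => Nat.rec g2 (fun _ _ => g3) k'') k') k

/-- the check of one class -/
noncomputable def chkE (gs : ℕ → List ℕ) (id : List ℕ) (a b w e : List ℕ) : Bool :=
  wF gs w.reverse id fun X => pw X fun X10 X11 => cond (beqL X11 id) (cond (Nat.beq (linL X 1) 1) false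
    (wF gs (cw (a, b)).reverse id fun R => mapF (linL X10) R fun Z => pw Z fun Z10 Z11 => cond (beqL Z11 id)
      (cond (Nat.beq (linL Z 1) 1) false (wF (gen4 X Z X10 Z10) e.reverse id fun E =>
        cond (Nat.beq (linL E 1) 1) false (pow23 E fun E23 => beqL E23 id))) false)) false

/-- the table: `(a, b, w, e)` -/
def T : List (List ℕ × List ℕ × List ℕ × List ℕ) := [
  ([2], [1, 0, 2, 0, 2, 1, 0, 1, 2, 0, 1, 0, 2, 0, 1, 2, 0, 1], [0, 1, 2, 0, 1, 0, 2, 0, 1, 0, 2, 1, 2, 1, 0], [0, 3, 3]),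
  ([1], [0, 2, 1, 0, 1, 2, 0], [0, 1, 0, 1, 0, 1, 0, 1, 2, 1, 2, 0, 2, 1, 0, 1, 0], [0, 0, 0, 1, 2, 3]),
  ([1], [0, 1, 0], [2, 0, 1, 0, 1, 0, 1, 0, 1, 2, 1, 2, 0, 2, 1, 0, 1, 0, 2], [0, 0, 3]),
  ([1, 2], [0, 2, 0, 1, 0, 2, 0, 1], [0, 1, 2, 1, 0, 1, 0, 1, 2, 1, 2, 0, 2, 1, 2, 1, 0], [0, 0, 1]),
  ([2], [0], [0, 1, 2, 1, 0, 1, 0, 2, 0, 1, 0, 1, 2, 1, 2, 1, 0], [0, 1, 1, 1]),
  ([1], [0, 1, 2, 0, 1, 2, 1, 2, 1, 0], [0, 1, 0, 2, 0, 1, 0, 1, 2], [0, 1, 1, 1]),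
  ([2, 0, 1, 0], [1, 0, 2, 1, 2, 0, 1, 2], [0, 2, 1, 0, 1, 0, 1, 2, 0, 1, 0, 2, 1, 2, 0], [0, 0, 1]),
  ([1], [0, 1, 2, 1, 0, 2, 0, 2], [0, 1, 0, 1, 2, 0, 1, 0, 2], [0, 3]),
  ([2], [1, 0, 1, 2, 0, 1], [0, 2, 1, 0, 1, 0, 1, 2, 0, 1, 0, 2, 1, 2, 0], [0, 0, 1, 0, 3]),
  ([2], [0, 1], [1, 2, 1, 0, 1, 0, 2, 0, 1, 0, 1, 2, 1, 2, 1], [0, 1, 1, 1]),
  ([1], [0], [2, 0, 1, 2, 0, 1, 0, 2, 0, 1, 0, 2, 1, 2, 1, 0, 2], [0, 3, 3]),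
  ([2], [0, 1, 2, 0, 1, 2, 1, 2, 0, 2, 1, 0], [1, 0, 1, 0, 1, 2, 0, 1, 0, 2, 1], [0, 0, 1]),
  ([1], [0, 2, 0, 1, 2, 0, 1, 0, 2], [2, 1, 0, 1, 0, 1, 0, 1, 2, 1, 2, 0, 2, 1, 0, 1, 2], [0, 0, 1, 1]),
  ([2], [0, 2, 1], [1, 0, 1, 0, 1, 2, 0, 1, 0, 2, 1], [0, 0, 1]),
  ([1], [0, 2, 0, 1, 2, 1, 0, 1, 2, 0], [0, 1, 0, 1, 0, 1, 2, 0, 1, 0, 2, 1, 0], [0, 0, 1, 1]),
  ([0, 2], [1, 0, 1, 0, 2, 0, 1], [0, 1, 0, 1, 2, 1, 2, 0, 2], [0, 0, 0, 1]),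
  ([1], [2, 0, 1, 0, 1, 2], [0, 1, 0, 1, 2, 1, 2, 0, 2], [0, 0, 3]),
  ([2], [0, 1, 0, 1], [1, 0, 1, 0, 1, 2, 0, 1, 0, 2, 1], [0, 0, 1, 1, 1]),
  ([1], [0, 1, 0, 2, 1, 0, 1, 0, 2], [1, 0, 1, 0, 2, 0, 1, 0, 1, 2, 1], [0, 1, 0, 1, 1]),
  ([0, 2, 1, 2], [1, 2, 1, 0, 2, 0, 2], [2, 0, 1, 0, 1, 0, 1, 2, 0, 1, 0, 2, 1, 0, 2], [0, 1, 1, 1]),
  ([0, 1], [1, 2, 1, 2], [1, 2, 0, 1, 0, 1, 0, 1, 2, 0, 1, 0, 2, 1, 0, 2, 1], [0, 1, 1, 1]),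
  ([1], [0, 1, 2, 1, 2, 1, 0, 1, 0, 2], [0, 1, 0, 2, 1, 0, 1, 0, 2, 0, 1, 0, 1, 2, 1, 2, 0, 1, 0], [0, 0, 3]),
  ([0, 2], [1, 0, 1, 0], [0, 1, 0, 1, 0, 1, 2, 0, 1, 0, 2, 1, 0], [0, 0, 0, 1, 2, 3]),
  ([1], [0, 1, 2, 0, 1, 0, 2], [0, 1, 0, 1, 2, 1, 2, 0, 2], [0, 1, 1]),
  ([1], [0, 2, 0, 2], [0, 1, 0, 1, 0, 1, 2, 0, 1, 0, 2, 1, 0], [0, 3]),
  ([1], [0, 1, 0, 2], [2, 0, 1, 0, 1, 0, 1, 2, 1, 2, 0, 2, 1, 0, 2], [0, 0, 0, 0, 1]),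
  ([1], [2, 0, 2, 1, 0, 1, 2], [2, 0, 1, 0, 1, 0, 1, 2, 1, 2, 0, 2, 1, 0, 2], [0, 0, 0, 1]),
  ([0, 1], [1, 2, 0, 2], [0, 1, 0, 1, 0, 1, 2, 1, 2, 0, 2, 1, 0], [0, 0, 0, 3]),
  ([1], [0, 2, 0, 1, 2, 0, 2], [1, 0, 1, 0, 1, 0, 1, 2, 1, 2, 0, 2, 1, 0, 1], [0, 0, 1, 0, 3]),
  ([0, 1], [1, 2, 0, 1, 2], [1, 2, 0, 1, 0, 1, 0, 2, 0, 1, 0, 1, 2, 1, 0, 2, 1], [0, 0, 0, 1]),
  ([0, 1], [1, 2, 0, 1, 0, 1, 2], [0, 1, 0, 2, 1, 0, 1, 0, 1, 2, 1, 2, 0, 2, 1, 2, 0, 1, 0], [0, 0, 0, 0, 1]),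
  ([0, 1], [2, 0, 2, 1, 2], [0, 1, 0, 1, 2, 1, 2, 0, 2], [0, 0, 1]),
  ([1], [0, 2, 0, 1, 0, 1, 2, 0, 2, 0], [0, 1, 0, 1, 2, 1, 2, 0, 2], [0, 0, 1]),
  ([1], [0, 2, 0, 1, 2, 0, 2, 0, 1, 2, 0], [0, 2, 1, 0, 1, 0, 2, 0, 1, 0, 1, 2, 1, 2, 0], [0, 0, 0, 1]),
  ([1], [0, 1, 2, 0, 1, 2], [0, 2, 1, 0, 1, 0, 1, 0, 2, 0, 1, 0, 1, 2, 1, 0, 1, 2, 0], [0, 0, 0, 1]),
  ([0, 2], [1, 0, 1, 2, 0, 2, 1], [1, 0, 1, 0, 2, 0, 1, 0, 1, 2, 1], [0, 0, 0, 3]),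
  ([1], [0, 2, 1, 2, 1, 0, 2], [2, 0, 1, 0, 1, 0, 1, 2, 0, 1, 0, 2, 1, 0, 2], [0, 0, 0, 0, 1]),
  ([1, 0, 1, 0], [0, 2, 1, 2], [0, 1, 0, 1, 0, 1, 2, 0, 1, 0, 2, 1, 0], [0, 0, 0, 3]),
  ([0, 1, 2, 1], [1, 0, 2], [0, 2, 1, 0, 1, 0, 2, 0, 1, 0, 1, 2, 1, 2, 0], [0, 0, 0, 3]),
  ([1], [0, 1, 2], [0, 1, 0, 1, 0, 1, 2, 1, 2, 0, 2, 1, 0], [0, 0, 0, 3]),
  ([1], [0, 2, 1, 2, 0], [0, 1, 0, 1, 0, 1, 2, 0, 1, 0, 2, 1, 0], [0, 1, 1, 1]),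
  ([0, 2], [1, 0, 1, 0, 2, 1], [1, 0, 1, 0, 1, 2, 1, 2, 0, 2, 1], [0, 0, 3, 3]),
  ([1, 0, 2, 0], [0, 1, 0, 2, 1], [0, 2, 1, 0, 1, 0, 1, 2, 1, 2, 0, 2, 1, 2, 0], [0, 0, 1, 1]),
  ([1, 0, 2, 0], [0, 1, 2], [0, 1, 0, 1, 2, 0, 1, 0, 2], [0, 0, 1, 0, 3]),
  ([2, 0, 1, 0, 1, 0], [0, 1, 0, 2, 0, 2, 0], [2, 0, 1, 0, 1, 0, 1, 2, 1, 2, 0, 2, 1, 0, 2], [0, 1, 2, 3]),
  ([0, 2], [1, 0, 2, 1, 0], [1, 0, 1, 0, 2, 0, 1, 0, 1, 2, 1], [0, 1, 1]),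
  ([1], [2, 0, 1, 2], [2, 0, 1, 0, 1, 0, 1, 2, 1, 2, 0, 2, 1, 0, 2], [0, 3]),
  ([1], [0, 1, 2, 0], [0, 2, 1, 2, 1, 0, 1, 0, 2, 0, 1, 0, 1, 2, 1, 2, 1, 2, 0], [0, 0, 0, 3]),
  ([0, 1, 2, 1, 2, 1], [1, 0, 1, 2, 1], [0, 1, 0, 1, 2, 1, 2, 0, 2], [0, 0, 0, 3]),
  ([0, 1], [1, 2], [2, 1, 0, 1, 0, 1, 2, 1, 2, 0, 2, 1, 2], [0, 1]),
  ([0, 2], [1, 0, 1, 2, 0, 1, 0], [1, 2, 0, 2, 0, 1, 0, 2, 0, 1, 0, 2, 1, 2, 0, 2, 1], [0, 0, 1]),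
  ([1], [0, 1, 0, 2, 0], [0, 1, 0, 1, 0, 1, 0, 1, 2, 1, 2, 0, 2, 1, 0, 1, 0], [0, 0, 0, 1, 1]),
  ([1], [0, 2], [2, 1, 0, 1, 0, 1, 2, 1, 2, 0, 2, 1, 2], [0, 1, 1, 1]),
  ([1], [0, 2, 0, 1, 2, 0, 1, 2], [1, 0, 1, 0, 1, 2, 1, 2, 0, 2, 1], [0, 1, 1]),
  ([0, 1], [2, 0, 1, 0, 2, 1, 2], [0, 1, 2, 1, 0, 1, 0, 2, 0, 1, 0, 1, 2, 1, 2, 1, 0], [0, 0, 0, 1])]

/-- the whole check -/
noncomputable def chkT (gs : ℕ → List ℕ) (id : List ℕ) (T : List (List ℕ × List ℕ × List ℕ × List ℕ)) : Bool :=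
  List.rec true (fun t _ ih => cond (chkE gs id t.1 t.2.1 t.2.2.1 t.2.2.2) ih false) T

theorem T_L : ∀ p ∈ Cfsg.Agent.H68.Ore.Co2Words.L, p = ([], []) ∨ ∃ t ∈ T, (t.1, t.2.1) = p := by decide

section

variable {G : Type*} [Group G] {Y : Type*} [MulAction G Y] (M : Mdl G Y) {tt : ℕ → G} {gs : ℕ → List ℕ}

theorem rp_pw {X : List ℕ} {g : G} (hX : M.Rp X g) {β : Sort _} (k : List ℕ → List ℕ → β) :
    ∃ X' X'', pw X k = k X' X'' ∧ M.Rp X' (g ^ 10) ∧ M.Rp X'' (g ^ 11) := by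
  have h2 := Mdl.Rp.mul M hX hX
  have h4 := Mdl.Rp.mul M h2 h2
  have h8 := Mdl.Rp.mul M h4 h4
  have h10 := Mdl.Rp.mul M h8 h2
  have h11 := Mdl.Rp.mul M h10 hX
  have e : g * g * (g * g) * (g * g * (g * g)) * (g * g) = g ^ 10 := by
    simp only [pow_succ, pow_zero, one_mul, mul_assoc]
  have e' : g ^ 10 * g = g ^ 11 := (pow_succ g 10).symm
  rw [e, e'] at h11
  rw [e] at h10
  refine ⟨_, _, ?_, h10, h11⟩
  unfold pw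
  simp only [mapF_eq]

/-- a matrix moving the point with code 1 -/
theorem ne_one (hy : ∃ y : Y, M.cd y = 1) {X : List ℕ} {g : G} (hX : M.Rp X g) (h : Nat.beq (linL X 1) 1 = false) :
    g ≠ 1 := by
  rintro rfl
  obtain ⟨y, hy⟩ := hy
  have h8 := hX y
  rw [one_smul, hy] at h8
  rw [← h8] at h
  exact absurd h (by decide)

theorem order11 (hy : ∃ y : Y, M.cd y = 1) {X X' : List ℕ} {g : G} (hX : M.Rp X g) (h : Nat.beq (linL X 1) 1 = false)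
    (hX' : M.Rp X' (g ^ 11)) (h' : beqL X' (idL M.w) = true) : orderOf g = 11 := by
  have : Fact (Nat.Prime 11) := ⟨by norm_num⟩
  refine orderOf_eq_prime (eq_of_rp M hX' ?_) (ne_one M hy hX h)
  rw [eq_of_beqL h']
  exact Mdl.Rp.one M

theorem order23 (hy : ∃ y : Y, M.cd y = 1) {X X' : List ℕ} {g : G} (hX : M.Rp X g) (h : Nat.beq (linL X 1) 1 = false)
    (hX' : M.Rp X' (g ^ 23)) (h' : beqL X' (idL M.w) = true) : orderOf g = 23 := by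
  have : Fact (Nat.Prime 23) := ⟨by norm_num⟩
  refine orderOf_eq_prime (eq_of_rp M hX' ?_) (ne_one M hy hX h)
  rw [eq_of_beqL h']
  exact Mdl.Rp.one M

theorem cond_t {b c : Bool} (h : cond b c false = true) : b = true ∧ c = true := by
  cases b
  · exact absurd h Bool.false_ne_true
  · exact ⟨rfl, h⟩

theorem cond_f {b c : Bool} (h : cond b false c = true) : b = false ∧ c = true := by
  cases b
  · exact ⟨rfl, h⟩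
  · exact absurd h Bool.false_ne_true

theorem rp_gen4 {X0 X1 X2 X3 : List ℕ} {g0 g1 g2 g3 : G} (h0 : M.Rp X0 g0) (h1 : M.Rp X1 g1) (h2 : M.Rp X2 g2)
    (h3 : M.Rp X3 g3) (k : ℕ) : M.Rp (gen4 X0 X1 X2 X3 k) (gen4 g0 g1 g2 g3 k) := by
  rcases k with _ | _ | _ | k
  · exact h0
  · exact h1
  · exact h2
  · exact h3

theorem wd_mem {S : Subgroup G} {f : ℕ → G} (hf : ∀ k, f k ∈ S) (w : List ℕ) : wd f w ∈ S := by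
  refine Subgroup.list_prod_mem _ fun x hx => ?_
  obtain ⟨k, -, rfl⟩ := List.mem_map.1 hx
  exact hf k

/-- soundness of the check of one class -/
theorem sound11 (hgs : ∀ k, M.Rp (gs k) (tt k)) (hy : ∃ y : Y, M.cd y = 1) {a b w e : List ℕ}
    (h : chkE gs (idL M.w) a b w e = true) : F11 (wd tt (cw (a, b))) := by
  unfold chkE at h
  rw [wF_eq] at h
  have hX := rp_wd M hgs w
  generalize mW gs w.reverse (idL M.w) = X at h hX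
  generalize wd tt w = A at hX
  obtain ⟨X10, X11, e1, h10, h11⟩ := rp_pw M hX (β := Bool) fun X10 X11 => cond (beqL X11 (idL M.w))
    (cond (Nat.beq (linL X 1) 1) false
    (wF gs (cw (a, b)).reverse (idL M.w) fun R => mapF (linL X10) R fun Z => pw Z fun Z10 Z11 => cond (beqL Z11 (idL M.w))
      (cond (Nat.beq (linL Z 1) 1) false (wF (gen4 X Z X10 Z10) e.reverse (idL M.w) fun E =>
        cond (Nat.beq (linL E 1) 1) false (pow23 E fun E23 => beqL E23 (idL M.w)))) false)) false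
  rw [e1] at h
  obtain ⟨hb1, h⟩ := cond_t h
  obtain ⟨hn1, h⟩ := cond_f h
  have oA := order11 M hy hX hn1 h11 hb1
  rw [wF_eq, mapF_eq] at h
  have hZ := Mdl.Rp.mul M h10 (rp_wd M hgs (cw (a, b)))
  generalize (mW gs (cw (a, b)).reverse (idL M.w)).map (linL X10) = Z at h hZ
  generalize hR : wd tt (cw (a, b)) = R at hZ ⊢
  obtain ⟨Z10, Z11, e2, k10, k11⟩ := rp_pw M hZ (β := Bool) fun Z10 Z11 => cond (beqL Z11 (idL M.w))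
      (cond (Nat.beq (linL Z 1) 1) false (wF (gen4 X Z X10 Z10) e.reverse (idL M.w) fun E =>
        cond (Nat.beq (linL E 1) 1) false (pow23 E fun E23 => beqL E23 (idL M.w)))) false
  rw [e2] at h
  obtain ⟨hb2, h⟩ := cond_t h
  obtain ⟨hn2, h⟩ := cond_f h
  have oB := order11 M hy hZ hn2 k11 hb2
  rw [wF_eq] at h
  have hE := rp_wd M (rp_gen4 M hX hZ h10 k10) e
  generalize mW (gen4 X Z X10 Z10) e.reverse (idL M.w) = E at h hE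
  obtain ⟨hn3, h⟩ := cond_f h
  obtain ⟨E', e3, h3⟩ := rp_pow M hE (β := Bool) fun E23 => beqL E23 (idL M.w)
  rw [e3] at h
  have oE := order23 M hy hE hn3 h3 h
  have hA11 : A ^ 11 = 1 := oA ▸ pow_orderOf_eq_one A
  refine ⟨A, A ^ 10 * R, ?_, oA, oB, _, wd_mem (fun k => ?_) e, oE⟩
  · rw [← mul_assoc, ← pow_succ', hA11, one_mul]
  · have hA : A ∈ Subgroup.closure ({A, A ^ 10 * R} : Set G) := Subgroup.subset_closure (by simp)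
    have hB : A ^ 10 * R ∈ Subgroup.closure ({A, A ^ 10 * R} : Set G) := Subgroup.subset_closure (by simp)
    rcases k with _ | _ | _ | k
    · exact hA
    · exact hB
    · exact pow_mem hA _
    · exact pow_mem hB _

/-- **every `l ≠ 1` from the class cover** -/
theorem f11_of (hgs : ∀ k, M.Rp (gs k) (tt k)) (hy : ∃ y : Y, M.cd y = 1) (hT : chkT gs (idL M.w) T = true)
    (hc : ∀ g : G, ∃ w ∈ Cfsg.Agent.H68.Ore.Co2Words.L.map cw, IsConj (wd tt w) g ∨ IsConj (wd tt w)⁻¹ g) (l : G)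
    (hl : l ≠ 1) : F11 l := by
  have key : ∀ T : List (List ℕ × List ℕ × List ℕ × List ℕ), chkT gs (idL M.w) T = true → ∀ t ∈ T,
      chkE gs (idL M.w) t.1 t.2.1 t.2.2.1 t.2.2.2 = true := by
    intro T
    induction T with
    | nil => intro _ t ht; exact absurd ht List.not_mem_nil
    | cons s T ih =>
      intro h t ht
      have h' : cond (chkE gs (idL M.w) s.1 s.2.1 s.2.2.1 s.2.2.2) (chkT gs (idL M.w) T) false = true := h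
      obtain ⟨h1, h2⟩ := cond_t h'
      rcases List.mem_cons.1 ht with h3 | h3
      · rw [h3]; exact h1
      · exact ih h2 t h3
  obtain ⟨w, hw, hg⟩ := hc l
  obtain ⟨p, hp, rfl⟩ := List.mem_map.1 hw
  rcases T_L p hp with h1 | ⟨t, ht, h1⟩
  · exfalso
    have h2 : wd tt (cw p) = 1 := by rw [h1]; rfl
    rw [h2] at hg
    apply hl
    rcases hg with hg | hg
    · rwa [isConj_one_right] at hg
    · rwa [inv_one, isConj_one_right] at hg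
  · have h2 := sound11 M hgs hy (key T hT t ht)
    rw [h1] at h2
    rcases hg with hg | hg
    · obtain ⟨x, rfl⟩ := isConj_iff.1 hg
      exact F11.conj h2 x
    · obtain ⟨x, rfl⟩ := isConj_iff.1 hg
      exact F11.conj (F11.inv h2) x

/-- the word of an element of order 11 inverted by `t 1` -/
def wR : List ℕ := [1, 0, 1, 0, 2, 1, 0, 2, 1, 2, 0, 1, 2, 0, 1, 0]

/-- its check -/
noncomputable def chkR (gs : ℕ → List ℕ) (id : List ℕ) : Bool :=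
  wF gs wR.reverse id fun X => pw X fun _ X11 => cond (beqL X11 id) (cond (Nat.beq (linL X 1) 1) false true) false

theorem r11_of (hgs : ∀ k, M.Rp (gs k) (tt k)) (htt : ∀ k, tt k * tt k = 1) (hy : ∃ y : Y, M.cd y = 1)
    (hR : chkR gs (idL M.w) = true) : R11 G := by
  unfold chkR at hR
  rw [wF_eq] at hR
  have hX := rp_wd M hgs wR
  generalize mW gs wR.reverse (idL M.w) = X at hR hX
  obtain ⟨X10, X11, e1, -, h11⟩ := rp_pw M hX (β := Bool) fun _ X11 => cond (beqL X11 (idL M.w))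
    (cond (Nat.beq (linL X 1) 1) false true) false
  rw [e1] at hR
  obtain ⟨hb1, h⟩ := cond_t hR
  obtain ⟨hn1, -⟩ := cond_f h
  refine ⟨wd tt wR, tt 1, order11 M hy hX hn1 h11 hb1, htt 1, ?_⟩
  have e : wd tt wR = tt 1 * wd tt wR.tail := by
    rw [wR, wd, List.map_cons, List.prod_cons]
    rfl
  have hs : wd tt wR.tail * wd tt wR.tail = 1 := wd_sq htt (by decide)
  have ht := inv_eq_of_mul_eq_one_left (htt 1)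
  have hs' := inv_eq_of_mul_eq_one_left hs
  rw [e, mul_inv_rev, ht, hs', ← mul_assoc, htt 1, one_mul]

end

end Cfsg.Agent.H516.Ore.CoTwo11
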