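import Cfsg.Agent.H516.Ore.LargeFour

/-!
# Elements of order 11 of `C(z)`, `|Q/⟨z⟩| = 2 ^ 22` (S4171, helper516)

* `card_fix` : an element of order 11 has four fixed vectors (two elements of order 11 generate an element of order 23);
* `i2_eleven` : it is inverted by an involution of `C(z)`, if there is a `C(z)`-invariant set of singular vectors with
  `≡ 1` modulo 11 elements;
* `i4_eleven` : `π g = a b` with `a`, `b` of order 11: `g` is a product of four involutions.
-/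

set_option autoImplicit false

namespace Cfsg.Agent.H516.Ore.LargeFour

open Cfsg.Agent.Co2Type.Quad (Large)
open Cfsg.Agent.H6.ORE
open Cfsg.Agent.H903.Ore.Large

universe u

variable {K : Type u} [Group K] {Q : Subgroup K} {z : K}

/-- fixed vectors -/
def Fix (h : Large Q z) (a : CZ z) : Set h.V := {v | h.act a v = v}

theorem finite_V [Finite Q] (h : Large Q z) : Finite h.V := Finite.of_surjective _ h.pr_surjective

/-- the number of fixed vectors modulo 11 -/
theorem fix_pow [Finite Q] (h : Large Q z) (hV : Nat.card h.V = 2 ^ 22) {a : CZ z} (ha : h.act a ^ 11 = 1) :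
    ∃ k ≤ 22, (Fix h a).ncard = 2 ^ k ∧ 2 ^ k ≡ 4 [MOD 11] := by
  have : Fact (Nat.Prime 11) := ⟨by norm_num⟩
  have := finite_V h
  let F : AddSubgroup h.V :=
    { carrier := Fix h a
      add_mem' := fun {v w} hv hw => by
        show h.act a (v + w) = v + w
        rw [map_add, show h.act a v = v from hv, show h.act a w = w from hw]
      zero_mem' := map_zero _
      neg_mem' := fun {v} hv => by
        show h.act a (-v) = -v
        rw [map_neg, show h.act a v = v from hv] }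
  have hF : Nat.card F = (Fix h a).ncard := rfl
  have h1 : Nat.card F ∣ 2 ^ 22 := by rw [← hV]; exact AddSubgroup.card_addSubgroup_dvd_card F
  obtain ⟨k, hk, h2⟩ := (Nat.dvd_prime_pow Nat.prime_two).1 h1
  refine ⟨k, hk, by rw [← hF, h2], ?_⟩
  have hG : IsPGroup 11 (Subgroup.zpowers (h.act a)) := by
    rintro ⟨b, j, rfl⟩
    refine ⟨1, Subtype.ext ?_⟩
    show (h.act a ^ j) ^ 11 ^ 1 = 1
    rw [pow_one, ← zpow_natCast, ← zpow_mul, mul_comm, zpow_mul, zpow_natCast, ha, one_zpow]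
  have hmod := hG.card_modEq_card_fixedPoints h.V
  have hfix : Nat.card (MulAction.fixedPoints (Subgroup.zpowers (h.act a)) h.V) = Nat.card F := by
    refine Nat.card_congr (Equiv.subtypeEquivRight fun v => ?_)
    rw [MulAction.mem_fixedPoints]
    constructor
    · intro h'
      exact h' ⟨h.act a, Subgroup.mem_zpowers _⟩
    · rintro h' ⟨b, j, rfl⟩
      have h1 : h.act a ∈ MulAction.stabilizer (h.V ≃ₗ[ZMod 2] h.V) v := h'
      exact zpow_mem h1 j
  rw [hfix, h2, hV] at hmod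
  exact hmod.symm.trans (by decide)

/-- conjugate elements and powers have the same number of fixed vectors -/
theorem ncard_fix_conj (h : Large Q z) {a b c : CZ z} (hb : h.act b = h.act (c * a * c⁻¹)) :
    (Fix h b).ncard = (Fix h a).ncard := by
  have e : Fix h b = h.act c '' Fix h a := by
    ext v
    constructor
    · intro hv
      have hv' : h.act (c * a * c⁻¹) v = v := by rw [← hb]; exact hv
      refine ⟨h.act c⁻¹ v, ?_, ?_⟩
      · show h.act a (h.act c⁻¹ v) = h.act c⁻¹ v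
        conv_rhs => rw [← hv']
        rw [← LinearEquiv.mul_apply, ← LinearEquiv.mul_apply, ← map_mul, ← map_mul]
        congr 2
        group
      · rw [← LinearEquiv.mul_apply, ← map_mul, mul_inv_cancel, map_one]; rfl
    · rintro ⟨w, hw, rfl⟩
      show h.act b (h.act c w) = h.act c w
      rw [hb]
      have hw' : h.act a w = w := hw
      conv_rhs => rw [← hw']
      rw [← LinearEquiv.mul_apply, ← LinearEquiv.mul_apply, ← map_mul, ← map_mul]
      congr 2
      group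
  rw [e, Set.ncard_image_of_injective _ (h.act c).injective]

theorem fix_pow_le [Finite Q] (h : Large Q z) (a : CZ z) (i : ℕ) : (Fix h a).ncard ≤ (Fix h (a ^ i)).ncard := by
  have := finite_V h
  refine Set.ncard_le_ncard ?_ (Set.toFinite _)
  intro v hv
  have hv' : h.act a v = v := hv
  show h.act (a ^ i) v = v
  rw [map_pow]
  induction i with
  | zero => rfl
  | succ i ih =>
    rw [pow_succ, LinearEquiv.mul_apply, hv', ih]

section

variable {L : Type*} [Group L] {π : CZ z →* L}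

/-- the Sylow 11-subgroups of `L` are cyclic of order 11 -/
def Sy11 (L : Type*) [Group L] : Prop :=
  ∀ x y : L, orderOf x = 11 → orderOf y = 11 → ∃ (c : L) (i : ℕ), y = c * x ^ i * c⁻¹

/-- **Four fixed vectors.** -/
theorem card_fix [Finite Q] (h : Large Q z) (hV : Nat.card h.V = 2 ^ 22) (hs : Function.Surjective π)
    (hk : ∀ c, π c = 1 ↔ (c : K) ∈ Q) (hL : Sy11 L) {a b : CZ z} (ha : orderOf (π a) = 11)
    (hb : orderOf (π b) = 11) {y : L} (hy : y ∈ Subgroup.closure ({π a, π b} : Set L)) (hyr : orderOf y = 23)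
    {c : CZ z} (hc : orderOf (π c) = 11) : (Fix h c).ncard = 4 := by
  have := finite_V h
  have hact : ∀ g g' : CZ z, π g = π g' → h.act g = h.act g' := by
    intro g g' e
    have h1 : h.act (g * g'⁻¹) = 1 := h.act_mem _ ((hk _).1 (by rw [map_mul, e, map_inv, mul_inv_cancel]))
    rw [map_mul, map_inv, mul_inv_eq_one] at h1
    exact h1
  -- all elements of order 11 have the same number of fixed vectors
  have hle : ∀ g g' : CZ z, orderOf (π g) = 11 → orderOf (π g') = 11 → (Fix h g).ncard ≤ (Fix h g').ncard := by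
    intro g g' hg hg'
    obtain ⟨x, i, e⟩ := hL _ _ hg hg'
    obtain ⟨d, rfl⟩ := hs x
    have h1 : h.act g' = h.act (d * g ^ i * d⁻¹) := hact _ _ (by rw [e]; simp only [map_mul, map_inv, map_pow])
    rw [ncard_fix_conj h h1]
    exact fix_pow_le h g i
  have heq : ∀ g g' : CZ z, orderOf (π g) = 11 → orderOf (π g') = 11 → (Fix h g).ncard = (Fix h g').ncard :=
    fun g g' hg hg' => le_antisymm (hle g g' hg hg') (hle g' g hg' hg)
  -- no common fixed vector
  have hinj : ∀ v, v ∈ Fix h a → v ∈ Fix h b → v = 0 := by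
    intro v hva hvb
    obtain ⟨d, hd, rfl⟩ : y ∈ (Subgroup.closure ({a, b} : Set (CZ z))).map π := by
      rw [MonoidHom.map_closure, Set.image_pair]
      exact hy
    have h3 : Subgroup.closure ({a, b} : Set (CZ z)) ≤
        (MulAction.stabilizer (h.V ≃ₗ[ZMod 2] h.V) v).comap h.act := by
      rw [Subgroup.closure_le]
      rintro _ (rfl | rfl)
      · exact hva
      · exact hvb
    refine fpf h (r := 23) (n := 22) (by norm_num) (by decide) ?_ ar_23_22 (g := d) ?_ ?_ (h3 hd)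
    · rw [h.card_eq, hV]; norm_num
    · rw [← hk, map_pow, ← hyr, pow_orderOf_eq_one]
    · intro hdQ
      rw [← hk] at hdQ
      rw [hdQ, orderOf_one] at hyr
      omega
  have hprod : (Fix h a).ncard * (Fix h b).ncard ≤ 2 ^ 22 := by
    rw [← hV, ← Set.ncard_prod, ← Nat.card_coe_set_eq]
    refine Nat.card_le_card_of_injective (fun p : (Fix h a ×ˢ Fix h b : Set (h.V × h.V)) => p.1.1 + p.1.2) ?_
    rintro ⟨⟨v, w⟩, hv, hw⟩ ⟨⟨v', w'⟩, hv', hw'⟩ e
    have e' : v + w = v' + w' := e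
    have hva : h.act a v = v := hv
    have hva' : h.act a v' = v' := hv'
    have hwb : h.act b w = w := hw
    have hwb' : h.act b w' = w' := hw'
    have e1 : v - v' = w' - w := by rw [sub_eq_sub_iff_add_eq_add, e', add_comm]
    have e2 := hinj (v - v') (show h.act a (v - v') = v - v' by rw [map_sub, hva, hva'])
      (show h.act b (v - v') = v - v' by rw [e1, map_sub, hwb, hwb'])
    have e3 : v = v' := sub_eq_zero.1 e2
    have e4 : w = w' := by rw [e3] at e'; exact add_left_cancel e'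
    subst e3; subst e4; rfl
  have hpw : ∀ g : CZ z, orderOf (π g) = 11 → h.act g ^ 11 = 1 := by
    intro g hg
    rw [← map_pow]
    apply h.act_mem
    rw [← hk, map_pow, ← hg, pow_orderOf_eq_one]
  obtain ⟨k, hk22, hk1, hk2⟩ := fix_pow h hV (hpw c hc)
  rw [heq a c ha hc, heq b c hb hc, hk1, ← pow_add] at hprod
  have h5 : k + k ≤ 22 := (Nat.pow_le_pow_iff_right (by norm_num)).1 hprod
  have h6 : k ≤ 11 := by omega
  have h7 : k = 2 := by
    clear hprod hk22 hk1 h5
    revert hk2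
    interval_cases k <;> decide
  rw [hk1, h7]; norm_num

/-- the set `Y` contains exactly one fixed vector -/
theorem exists_unique_fix [Finite Q] (h : Large Q z) {a : CZ z} (ha : h.act a ^ 11 = 1) (h4 : (Fix h a).ncard = 4)
    {Y : Set h.V} (hY : ∀ (c : CZ z), ∀ v ∈ Y, h.act c v ∈ Y) (hY1 : Y.ncard ≡ 1 [MOD 11]) (h0 : (0 : h.V) ∉ Y) :
    ∃ v ∈ Y, h.act a v = v ∧ ∀ w ∈ Y, h.act a w = w → w = v := by
  classical
  have : Fact (Nat.Prime 11) := ⟨by norm_num⟩
  have := finite_V h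
  have := Fintype.ofFinite Y
  let f : Function.End Y := fun v => ⟨h.act a v, hY a v v.2⟩
  have hf : ∀ (i : ℕ) (v : Y), (((f ^ i) v : Y) : h.V) = (h.act a ^ i) v := by
    intro i
    induction i with
    | zero => intro v; rfl
    | succ i ih =>
      intro v
      rw [pow_succ, pow_succ]
      exact ih (f v)
  have hf1 : f ^ 11 ^ 1 = 1 := by
    funext v
    apply Subtype.ext
    rw [hf, pow_one, ha]
    rfl
  have h1 := Equiv.Perm.card_fixedPoints_modEq hf1
  rw [← Nat.card_eq_fintype_card, Nat.card_coe_set_eq] at h1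
  -- fixed points inside `Fix \ {0}`
  have h2 : Fintype.card f.fixedPoints ≤ 3 := by
    have h3 : (Fix h a \ {0}).ncard = 3 := by
      rw [Set.ncard_sdiff_singleton_of_mem (show (0 : h.V) ∈ Fix h a from map_zero _), h4]
    rw [← h3, ← Nat.card_eq_fintype_card, ← Nat.card_coe_set_eq]
    refine Nat.card_le_card_of_injective (fun v : f.fixedPoints => (⟨((v : Y) : h.V), ?_, ?_⟩ :
      (Fix h a \ {0} : Set h.V))) ?_
    · exact congrArg Subtype.val v.2
    · intro e
      have e' : ((v : Y) : h.V) = 0 := e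
      exact h0 (e' ▸ (v : Y).2)
    · intro v w e
      have e' : ((v : Y) : h.V) = ((w : Y) : h.V) := congrArg (fun t : (Fix h a \ {0} : Set h.V) => (t : h.V)) e
      exact Subtype.ext (Subtype.ext e')
  have h5 : Fintype.card f.fixedPoints = 1 := by
    have h6 : Fintype.card f.fixedPoints ≡ 1 [MOD 11] := h1.symm.trans hY1
    have h7 : Fintype.card f.fixedPoints % 11 = 1 := h6
    omega
  obtain ⟨v, hv⟩ := Fintype.card_eq_one_iff.1 h5
  refine ⟨(v : Y), (v : Y).2, congrArg Subtype.val v.2, fun w hw hw' => ?_⟩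
  have h8 := hv ⟨⟨w, hw⟩, Subtype.ext hw'⟩
  exact congrArg (fun t : f.fixedPoints => ((t : Y) : h.V)) h8

end

/-- elements of order `r` in the same coset of a normal `r'`-subgroup `N` are conjugate under `N` -/
theorem conj_coset {H : Type*} [Group H] [Finite H] {N : Subgroup H} (hN : N.Normal) {r : ℕ} (hr : r.Prime)
    (hrN : ¬ r ∣ Nat.card N) {p d : H} (hp : orderOf p = r) (hdr : orderOf d = r) (hd : d * p⁻¹ ∈ N) :
    ∃ q ∈ N, q * d * q⁻¹ = p := by
  classical
  have : Fact r.Prime := ⟨hr⟩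
  let q : H →* H ⧸ N := QuotientGroup.mk' N
  have hqs : Function.Surjective q := QuotientGroup.mk'_surjective N
  have hqN : ∀ x, q x = 1 ↔ x ∈ N := fun x => QuotientGroup.eq_one_iff x
  have hdp : q d = q p := by
    have h1 : q (d * p⁻¹) = 1 := (hqN _).2 hd
    rw [map_mul, map_inv] at h1
    exact mul_inv_eq_one.1 h1
  have hqp : orderOf (q p) = r := by
    have h1 : orderOf (q p) ∣ r := by rw [← hp]; exact orderOf_map_dvd q p
    rcases (Nat.dvd_prime hr).1 h1 with h2 | h2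
    · exfalso
      have h3 : p ∈ N := (hqN _).1 (orderOf_eq_one_iff.1 h2)
      apply hrN
      have h4 : orderOf (⟨p, h3⟩ : N) ∣ Nat.card N := orderOf_dvd_natCard _
      rwa [Subgroup.orderOf_mk, hp] at h4
    · exact h2
  let P : Subgroup H := (Subgroup.zpowers (q p)).comap q
  have hpP : p ∈ P := Subgroup.mem_zpowers (q p)
  have hdP : d ∈ P := by
    show q d ∈ Subgroup.zpowers (q p)
    rw [hdp]
    exact Subgroup.mem_zpowers (q p)
  have hcard : Nat.card P = r * Nat.card N := by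
    have h1 : P.index = (Subgroup.zpowers (q p)).index := Subgroup.index_comap_of_surjective _ hqs
    have h2 : Nat.card P * P.index = Nat.card H := Subgroup.card_mul_index P
    have h3 : Nat.card (Subgroup.zpowers (q p)) * (Subgroup.zpowers (q p)).index = Nat.card (H ⧸ N) :=
      Subgroup.card_mul_index _
    rw [Nat.card_zpowers, hqp] at h3
    have h4 := Subgroup.card_eq_card_quotient_mul_card_subgroup N
    have h5 : 0 < P.index := Nat.pos_of_ne_zero Subgroup.index_ne_zero_of_finite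
    apply Nat.eq_of_mul_eq_mul_right h5
    rw [h2, h4, ← h3, h1]
    ring
  have hsyl : ∀ x : P, orderOf (x : H) = r → ∃ S : Sylow r P, (S : Subgroup P) = Subgroup.zpowers x := by
    intro x hx
    have h1 : Nat.card (Subgroup.zpowers x) = r := by
      rw [Nat.card_zpowers, ← Subgroup.orderOf_coe, hx]
    have h2 : IsPGroup r (Subgroup.zpowers x) := IsPGroup.of_card (n := 1) (by rw [h1, pow_one])
    have h3 : ¬ r ∣ (Subgroup.zpowers x).index := by
      have h4 := Subgroup.card_mul_index (Subgroup.zpowers x)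
      rw [h1, hcard] at h4
      have h5 : (Subgroup.zpowers x).index = Nat.card N := Nat.eq_of_mul_eq_mul_left hr.pos h4
      rw [h5]; exact hrN
    exact ⟨h2.toSylow h3, rfl⟩
  obtain ⟨S, hS⟩ := hsyl ⟨p, hpP⟩ hp
  obtain ⟨T, hT⟩ := hsyl ⟨d, hdP⟩ hdr
  obtain ⟨g, hg⟩ := MulAction.exists_smul_eq P T S
  have h6 : (g * ⟨d, hdP⟩ * g⁻¹ : P) ∈ (S : Subgroup P) := by
    rw [← hg]
    have h7 : g * ⟨d, hdP⟩ * g⁻¹ = (MulAut.conj g) • (⟨d, hdP⟩ : P) := rfl
    rw [h7]
    apply Subgroup.smul_mem_pointwise_smul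
    rw [hT]
    exact Subgroup.mem_zpowers _
  rw [hS] at h6
  obtain ⟨i, hi⟩ := Subgroup.mem_zpowers_iff.1 h6
  have hi' : p ^ i = (g : H) * d * (g : H)⁻¹ := congrArg Subtype.val hi
  -- `g = p ^ j * y`, `y ∈ N`
  obtain ⟨j, hj⟩ := Subgroup.mem_zpowers_iff.1 (show q (g : H) ∈ Subgroup.zpowers (q p) from g.2)
  have hy : p ^ (-j) * (g : H) ∈ N := by
    rw [← hqN, map_mul, map_zpow, ← hj, ← zpow_add, neg_add_cancel, zpow_zero]
  refine ⟨p ^ (-j) * (g : H), hy, ?_⟩
  have e1 : p ^ (-j) * (g : H) * d * (p ^ (-j) * (g : H))⁻¹ = p ^ i := by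
    calc p ^ (-j) * (g : H) * d * (p ^ (-j) * (g : H))⁻¹ = p ^ (-j) * ((g : H) * d * (g : H)⁻¹) * (p ^ (-j))⁻¹ := by
          group
      _ = p ^ i := by rw [← hi']; group
  rw [e1]
  have e2 : q p ^ i = q p := by
    rw [← map_zpow, ← e1, map_mul, map_mul, map_inv, (hqN _).2 hy, one_mul, inv_one, mul_one, hdp]
  have e3 : (orderOf (q p) : ℤ) ∣ i - 1 := by
    rw [orderOf_dvd_iff_zpow_eq_one, zpow_sub, zpow_one, e2, mul_inv_cancel]
  rw [hqp, ← hp, orderOf_dvd_iff_zpow_eq_one, zpow_sub, zpow_one, mul_inv_eq_one] at e3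
  exact e3

section

variable {L : Type*} [Group L] {π : CZ z →* L}

/-- the card of `Q` -/
theorem card_Q [Finite Q] (h : Large Q z) (hV : Nat.card h.V = 2 ^ 22) : Nat.card (Q.subgroupOf (CZ z)) = 2 ^ 23 := by
  have h1 : Nat.card (Q.subgroupOf (CZ z)) = Nat.card Q := by
    refine Nat.card_congr ⟨fun x => ⟨(x : CZ z), x.2⟩, fun x => ⟨⟨x, Subgroup.mem_centralizer_singleton_iff.2
      (h.comm_z x x.2)⟩, x.2⟩, fun x => rfl, fun x => rfl⟩
  rw [h1, h.card_eq, hV]
  norm_num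

/-- **Elements of order 11 of `C(z)` are inverted by an involution of `C(z)`.** -/
theorem i2_eleven [Finite K] (h : Large Q z) (hV : Nat.card h.V = 2 ^ 22) (hs : Function.Surjective π)
    (hk : ∀ c, π c = 1 ↔ (c : K) ∈ Q) (hL : Sy11 L)
    (hP : ∃ a b : L, orderOf a = 11 ∧ orderOf b = 11 ∧ ∃ y ∈ Subgroup.closure ({a, b} : Set L), orderOf y = 23)
    (hR : ∃ a t : L, orderOf a = 11 ∧ t * t = 1 ∧ t * a * t⁻¹ = a⁻¹)
    {Y : Set h.V} (hY : ∀ (c : CZ z), ∀ v ∈ Y, h.act c v ∈ Y) (hY1 : Y.ncard ≡ 1 [MOD 11])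
    (hY0 : ∀ v ∈ Y, v ≠ 0 ∧ h.q v = 0) {a : CZ z} (ha : orderOf a = 11) (ha' : orderOf (π a) = 11) :
    H529.Inv.I2 a := by
  obtain ⟨a₁, b₁, hoa, hob, y, hy, hyr⟩ := hP
  obtain ⟨a₁, rfl⟩ := hs a₁
  obtain ⟨b₁, rfl⟩ := hs b₁
  have h4 : (Fix h a).ncard = 4 := card_fix h hV hs hk hL hoa hob hy hyr ha'
  have ha11 : a ^ 11 = 1 := by rw [← ha]; exact pow_orderOf_eq_one a
  have hact : h.act a ^ 11 = 1 := by rw [← map_pow, ha11, map_one]
  obtain ⟨v, hvY, hav, hv⟩ := exists_unique_fix h hact h4 hY hY1 (fun h0 => (hY0 0 h0).1 rfl)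
  -- an element inverting `a`
  obtain ⟨a₂, t₂, ho2, ht2, hta⟩ := hR
  obtain ⟨c, i, hc⟩ := hL _ _ ho2 ha'
  obtain ⟨n₁, hn₁⟩ := hs (c * t₂ * c⁻¹)
  have h11 : (c * t₂ * c⁻¹) * π a * (c * t₂ * c⁻¹)⁻¹ = (π a)⁻¹ := by
    rw [hc]
    calc (c * t₂ * c⁻¹) * (c * a₂ ^ i * c⁻¹) * (c * t₂ * c⁻¹)⁻¹ = c * (t₂ * a₂ ^ i * t₂⁻¹) * c⁻¹ := by group
      _ = c * (t₂ * a₂ * t₂⁻¹) ^ i * c⁻¹ := by rw [conj_pow]
      _ = (c * a₂ ^ i * c⁻¹)⁻¹ := by rw [hta, inv_pow]; group
  have hn := (es_of_large h).normal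
  obtain ⟨q, hq, hqa⟩ := conj_coset hn (r := 11) (by norm_num) (by
    rw [card_Q h hV]; norm_num) ha (d := n₁ * a⁻¹ * n₁⁻¹) (by
      rw [show n₁ * a⁻¹ * n₁⁻¹ = MulAut.conj n₁ a⁻¹ from rfl, MulEquiv.orderOf_eq, orderOf_inv, ha]) (by
      show ((n₁ * a⁻¹ * n₁⁻¹ * a⁻¹ : CZ z) : K) ∈ Q
      rw [← hk]
      simp only [map_mul, map_inv]
      rw [hn₁]
      have h12 : (c * t₂ * c⁻¹) * (π a)⁻¹ * (c * t₂ * c⁻¹)⁻¹ = ((c * t₂ * c⁻¹) * π a * (c * t₂ * c⁻¹)⁻¹)⁻¹ := by
        group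
      rw [h12, h11, inv_inv, mul_inv_cancel])
  have hinv : (q * n₁) * a * (q * n₁)⁻¹ = a⁻¹ := by
    have e1 : (q * (n₁ * a⁻¹ * n₁⁻¹) * q⁻¹)⁻¹ = a⁻¹ := by rw [hqa]
    rw [← e1]
    group
  have hn2 : (((q * n₁) * (q * n₁) : CZ z) : K) ∈ Q := by
    rw [← hk, map_mul, map_mul, hn₁, (hk q).2 hq, one_mul]
    calc (c * t₂ * c⁻¹) * (c * t₂ * c⁻¹) = c * (t₂ * t₂) * c⁻¹ := by group
      _ = 1 := by rw [ht2]; group
  -- it fixes `v`
  have hnv : h.act (q * n₁) v = v := by
    apply hv _ (hY _ v hvY)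
    have han : a * (q * n₁) = (q * n₁) * a⁻¹ := by
      have e1 : (q * n₁) * a = a⁻¹ * (q * n₁) := mul_inv_eq_iff_eq_mul.1 hinv
      calc a * (q * n₁) = a * ((q * n₁) * a) * a⁻¹ := by group
        _ = (q * n₁) * a⁻¹ := by rw [e1]; group
    have hinv2 : h.act a⁻¹ v = v := by
      conv_lhs => rw [← hav]
      rw [← LinearEquiv.mul_apply, ← map_mul, inv_mul_cancel, map_one]
      rfl
    rw [← LinearEquiv.mul_apply, ← map_mul, han, map_mul, LinearEquiv.mul_apply, hinv2]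
  obtain ⟨τ, h1, h2⟩ := exists_inv h (r := 11) (by decide) ha11 hinv hn2 h4 (hY0 v hvY).2 (hY0 v hvY).1 hav hnv
  exact H529.Inv.I2.of_inv h1 h2

/-- a lift of order 11 -/
theorem exists_lift [Finite K] (h : Large Q z) (hs : Function.Surjective π)
    (hk : ∀ c, π c = 1 ↔ (c : K) ∈ Q) {x : L} (hx : orderOf x = 11) : ∃ a : CZ z, π a = x ∧ orderOf a = 11 := by
  have : Fact (Nat.Prime 11) := ⟨by norm_num⟩
  obtain ⟨a, rfl⟩ := hs x
  refine ⟨a ^ 12, ?_, orderOf_eq_prime ?_ ?_⟩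
  · rw [map_pow, show (12 : ℕ) = 11 + 1 from rfl, pow_succ, ← hx, pow_orderOf_eq_one, one_mul]
  · have h1 : ((a ^ 11 : CZ z) : K) ∈ Q := by
      rw [← hk, map_pow, ← hx, pow_orderOf_eq_one]
    have h2 : ((a ^ 11 : CZ z) : K) * (a ^ 11 : CZ z) = 1 ∨ ((a ^ 11 : CZ z) : K) * (a ^ 11 : CZ z) = z := h.sq _ h1
    have h3 : ((a ^ 11 : CZ z) : K) ^ 4 = 1 := by
      have h5 : ((a ^ 11 : CZ z) : K) ^ 4 = ((a ^ 11 : CZ z) : K) * (a ^ 11 : CZ z) *
          (((a ^ 11 : CZ z) : K) * (a ^ 11 : CZ z)) := by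
        simp only [pow_succ, pow_zero, one_mul, mul_assoc]
      rw [h5]
      rcases h2 with e | e
      · rw [e, mul_one]
      · rw [e, h.z_sq]
    have h4 : (a ^ 11) ^ 4 = (1 : CZ z) := Subtype.ext (by rw [Subgroup.coe_pow]; exact h3)
    rw [← pow_mul, show 12 * 11 = 11 * 4 * 3 from rfl, pow_mul, pow_mul, h4, one_pow]
  · intro e
    have h1 : π a ^ 12 = 1 := by rw [← map_pow, e, map_one]
    rw [show (12 : ℕ) = 11 + 1 from rfl, pow_succ, ← hx, pow_orderOf_eq_one, one_mul] at h1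
    rw [h1, orderOf_one] at hx
    omega

/-- **`π g = a b` with `a`, `b` of order 11.** -/
theorem i4_eleven [Finite K] (h : Large Q z) (hV : Nat.card h.V = 2 ^ 22) (hs : Function.Surjective π)
    (hk : ∀ c, π c = 1 ↔ (c : K) ∈ Q) (hL : Sy11 L)
    (hR : ∃ a t : L, orderOf a = 11 ∧ t * t = 1 ∧ t * a * t⁻¹ = a⁻¹)
    {Y : Set h.V} (hY : ∀ (c : CZ z), ∀ v ∈ Y, h.act c v ∈ Y) (hY1 : Y.ncard ≡ 1 [MOD 11])
    (hY0 : ∀ v ∈ Y, v ≠ 0 ∧ h.q v = 0) {g : CZ z} {a₀ b₀ : L} (e : π g = a₀ * b₀) (ha : orderOf a₀ = 11)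
    (hb : orderOf b₀ = 11) {y : L} (hy : y ∈ Subgroup.closure ({a₀, b₀} : Set L)) (hyr : orderOf y = 23) :
    H777.Ore.I4 (g : K) := by
  obtain ⟨a, rfl, hoa⟩ := exists_lift h hs hk ha
  obtain ⟨b, rfl, hob⟩ := exists_lift h hs hk hb
  have hfin : Finite (Q.subgroupOf (CZ z)) := inferInstance
  have hE := es_of_large h
  obtain ⟨d, hd, hdy⟩ : y ∈ (Subgroup.closure ({a, b} : Set (CZ z))).map π := by
    rw [MonoidHom.map_closure, Set.image_pair]
    exact hy
  have hfp : FPz (Q.subgroupOf (CZ z)) (zC z) a b := by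
    apply FPz.of_fix hE
    intro x hx hxa hxb
    have hxQ : (x : K) ∈ Q := hx
    have h1 := act_fix h a (x := ⟨x, hxQ⟩) (hxa.imp (congrArg Subtype.val) (congrArg Subtype.val))
    have h2 := act_fix h b (x := ⟨x, hxQ⟩) (hxb.imp (congrArg Subtype.val) (congrArg Subtype.val))
    have h3 : Subgroup.closure ({a, b} : Set (CZ z)) ≤
        (MulAction.stabilizer (h.V ≃ₗ[ZMod 2] h.V) (h.pr ⟨x, hxQ⟩)).comap h.act := by
      rw [Subgroup.closure_le]
      rintro _ (rfl | rfl)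
      · exact h1
      · exact h2
    have h5 := fpf h (r := 23) (n := 22) (by norm_num) (by decide) (by rw [h.card_eq, hV]; norm_num) ar_23_22 (g := d)
      (by rw [← hk, map_pow, hdy, ← hyr, pow_orderOf_eq_one])
      (by
        intro hdQ
        rw [← hk, hdy] at hdQ
        rw [hdQ, orderOf_one] at hyr
        omega) (h3 hd)
    rcases h.pr_eq_zero.1 h5 with h6 | h6
    · exact Or.inl (Subtype.ext h6)
    · exact Or.inr (Subtype.ext h6)
  have hI : ∀ c : CZ z, orderOf c = 11 → orderOf (π c) = 11 → H529.Inv.I2 c := fun c hc hc' =>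
    i2_eleven h hV hs hk hL ⟨_, _, ha, hb, y, hy, hyr⟩ hR hY hY1 hY0 hc hc'
  refine i4_mul h hfp (hI a hoa ha) (hI b hob hb) ?_
  rw [← hk, map_mul, map_inv, map_mul, ← e, inv_mul_cancel]

end

end Cfsg.Agent.H516.Ore.LargeFour
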